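import Cfsg.Agent.H226.Tall.Defs

/-!
# S2927 (team TALL, helper348): `Both K` from an explicit Sylow 2-subgroup
-/

set_option autoImplicit false

namespace Cfsg.Agent.H348.Tall

open Subgroup Cfsg Cfsg.Agent.H226.Tall

variable {K : Type*} [Group K]

/-- a 2-subgroup normalised by a Sylow 2-subgroup lies in it -/
theorem le_sylow [Finite K] {P : Sylow 2 K} {W : Subgroup K} (hW : IsPGroup 2 W)
    (hn : (P : Subgroup K) ≤ normalizer (W : Set K)) : W ≤ (P : Subgroup K) := by
  have h1 : IsPGroup 2 ↥(W ⊔ (P : Subgroup K)) := hW.to_sup_of_normal_left' P.isPGroup' hn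
  rw [← P.is_maximal' h1 le_sup_right]
  exact le_sup_left

/-- an involution centralised by a Sylow 2-subgroup is conjugate to `z₀` -/
theorem TwoC.isConj [Finite K] (P : Sylow 2 K) {z₀ : K}
    (h0 : ∀ x ∈ (P : Subgroup K), x * x = 1 → x ≠ 1 → (∀ y ∈ (P : Subgroup K), x * y = y * x) → x = z₀)
    {z : K} (hz : TwoC z) : ∃ g : K, g * z * g⁻¹ = z₀ := by
  obtain ⟨ho, Q, hQ⟩ := hz
  obtain ⟨g, hg⟩ := MulAction.exists_smul_eq K Q P
  have hzz : z * z = 1 := by rw [← pow_two, ← ho]; exact pow_orderOf_eq_one z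
  have hz1 : z ≠ 1 := by
    rintro rfl
    rw [orderOf_one] at ho
    omega
  have hsub : ∀ q ∈ (Q : Subgroup K), q * z = z * q := fun q hq => mem_centralizer_singleton_iff.1 (hQ hq)
  have hzQ : z ∈ (Q : Subgroup K) := by
    have h1 : IsPGroup 2 ↥(zpowers z) := IsPGroup.of_card (n := 1) (by rw [Nat.card_zpowers, ho, pow_one])
    refine le_sylow h1 ?_ (mem_zpowers z)
    intro q hq
    rw [mem_normalizer_iff]
    intro x
    have hc : ∀ y ∈ zpowers z, q * y * q⁻¹ = y := by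
      intro y hy
      obtain ⟨k, rfl⟩ := mem_zpowers_iff.1 hy
      have : Commute q z := hsub q hq
      rw [(this.zpow_right k).eq, mul_inv_cancel_right]
    constructor
    · intro hx
      rw [hc x hx]; exact hx
    · intro hx
      have h2 := hc _ hx
      have h3 : q * x * q⁻¹ = x := by
        have h4 : q * (q * x * q⁻¹) * q⁻¹ = q * x * q⁻¹ := h2
        have h5 : q * x * q⁻¹ = x := by
          have := mul_left_cancel (mul_right_cancel h4)
          exact this
        exact h5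
      rw [h3] at hx; exact hx
  have hmem : ∀ q : K, q ∈ (Q : Subgroup K) ↔ g * q * g⁻¹ ∈ (P : Subgroup K) := by
    intro q
    rw [← hg, Sylow.coe_subgroup_smul]
    constructor
    · intro hq
      exact ⟨q, hq, rfl⟩
    · rintro ⟨q', hq', h⟩
      have h' : g * q' * g⁻¹ = g * q * g⁻¹ := h
      rw [← mul_left_cancel (mul_right_cancel h')]
      exact hq'
  refine ⟨g, h0 _ ((hmem z).1 hzQ) ?_ ?_ ?_⟩
  · rw [show g * z * g⁻¹ * (g * z * g⁻¹) = g * (z * z) * g⁻¹ by group, hzz, mul_one, mul_inv_cancel]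
  · intro h
    apply hz1
    rw [mul_inv_eq_one] at h
    exact mul_eq_left.1 h
  · intro y hy
    have h1 : g⁻¹ * y * g ∈ (Q : Subgroup K) := by
      rw [hmem]
      have : g * (g⁻¹ * y * g) * g⁻¹ = y := by group
      rwa [this]
    have h2 := hsub _ h1
    calc g * z * g⁻¹ * y = g * (z * (g⁻¹ * y * g)) * g⁻¹ := by group
      _ = g * (g⁻¹ * y * g * z) * g⁻¹ := by rw [h2]
      _ = y * (g * z * g⁻¹) := by group

/-- `RowOne` without the hypothesis on the characteristic -/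
def RowS (K : Type*) [Group K] : Prop :=
  ∀ z : K, TwoC z → ∀ W : Subgroup K, (∀ w ∈ W, w * w = 1) → z ∈ W →
    centralizer ({z} : Set K) ≤ normalizer (W : Set K) → ∀ w ∈ W, (∃ α : MulAut K, α z = w) → w = z

/-- both -/
def BothS (K : Type*) [Group K] : Prop := RowS K ∧ RowTwo K

/-- **`Both K` from a Sylow 2-subgroup** -/
theorem both_of_sylow [Finite K] (P : Sylow 2 K) (z₀ : K) (hc : (P : Subgroup K) ≤ centralizer {z₀})
    (h0 : ∀ x ∈ (P : Subgroup K), x * x = 1 → x ≠ 1 → (∀ y ∈ (P : Subgroup K), x * y = y * x) → x = z₀)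
    (hw : ∀ w ∈ (P : Subgroup K), w * w = 1 → w ≠ 1 → w ≠ z₀ → ∃ c : K, c * z₀ = z₀ * c ∧
      w * (c * w * c⁻¹) ≠ c * w * c⁻¹ * w)
    (y : K) (hy : y * z₀ = z₀ * y) (hy3 : y ^ 3 = 1) (hy1 : y ≠ 1) : BothS K := by
  constructor
  · intro z hz W hW hzW hn w hwW hα
    obtain ⟨g, hg⟩ := TwoC.isConj P h0 hz
    by_contra hne
    have hw1 : w ≠ 1 := by
      rintro rfl
      obtain ⟨α, hα⟩ := hα
      have : z = 1 := α.injective (by rw [hα, map_one])
      rw [this] at hz
      have := hz.1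
      rw [orderOf_one] at this
      omega
    -- the conjugate of `W`
    have hcomm : ∀ a ∈ W, ∀ b ∈ W, a * b = b * a := by
      intro a ha b hb
      have h1 := hW _ (mul_mem ha hb)
      have h2 := hW a ha
      have h3 := hW b hb
      have e1 : (a * b)⁻¹ = a * b := inv_eq_of_mul_eq_one_left h1
      have e2 : a⁻¹ = a := inv_eq_of_mul_eq_one_left h2
      have e3 : b⁻¹ = b := inv_eq_of_mul_eq_one_left h3
      rw [← e1, mul_inv_rev, e2, e3]
    have hsq : ∀ a ∈ W, g * a * g⁻¹ * (g * a * g⁻¹) = 1 := by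
      intro a ha
      rw [show g * a * g⁻¹ * (g * a * g⁻¹) = g * (a * a) * g⁻¹ by group, hW a ha, mul_one, mul_inv_cancel]
    have hn' : ∀ c : K, c * z₀ = z₀ * c → ∀ a : K, a ∈ W.map (MulAut.conj g).toMonoidHom →
        c * a * c⁻¹ ∈ W.map (MulAut.conj g).toMonoidHom := by
      rintro c hcz _ ⟨a, ha, rfl⟩
      have h1 : g⁻¹ * c * g ∈ centralizer ({z} : Set K) := by
        rw [mem_centralizer_singleton_iff]
        have hz' : z = g⁻¹ * z₀ * g := by rw [← hg]; group
        rw [hz']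
        calc g⁻¹ * c * g * (g⁻¹ * z₀ * g) = g⁻¹ * (c * z₀) * g := by group
          _ = g⁻¹ * (z₀ * c) * g := by rw [hcz]
          _ = g⁻¹ * z₀ * g * (g⁻¹ * c * g) := by group
      have h2 := (mem_normalizer_iff.1 (hn h1) a).1 ha
      refine ⟨_, h2, ?_⟩
      show g * (g⁻¹ * c * g * a * (g⁻¹ * c * g)⁻¹) * g⁻¹ = c * (g * a * g⁻¹) * c⁻¹
      group
    have hWp : IsPGroup 2 ↥(W.map (MulAut.conj g).toMonoidHom) := by
      rintro ⟨_, a, ha, rfl⟩
      refine ⟨1, Subtype.ext ?_⟩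
      show (g * a * g⁻¹) ^ 2 ^ 1 = 1
      rw [pow_one, pow_two]
      exact hsq a ha
    have hle : W.map (MulAut.conj g).toMonoidHom ≤ (P : Subgroup K) := by
      refine le_sylow hWp ?_
      intro q hq
      have hqz : q * z₀ = z₀ * q := mem_centralizer_singleton_iff.1 (hc hq)
      rw [mem_normalizer_iff]
      intro x
      refine ⟨hn' q hqz x, fun hx => ?_⟩
      have hqz' : q⁻¹ * z₀ = z₀ * q⁻¹ := by
        have : Commute q z₀ := hqz
        exact this.inv_left.eq
      have := hn' q⁻¹ hqz' _ hx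
      have e : q⁻¹ * (q * x * q⁻¹) * q⁻¹⁻¹ = x := by group
      rwa [e] at this
    have hgw : g * w * g⁻¹ ∈ W.map (MulAut.conj g).toMonoidHom := ⟨w, hwW, rfl⟩
    obtain ⟨c, hcz, hcc⟩ := hw (g * w * g⁻¹) (hle hgw) (hsq w hwW) (by
      intro h
      apply hw1
      rw [mul_inv_eq_one] at h
      exact mul_eq_left.1 h) (by
      intro h
      rw [← hg] at h
      exact hne (mul_left_cancel (mul_right_cancel h)))
    apply hcc
    obtain ⟨b, hb, hb'⟩ := hn' c hcz _ hgw
    have hb'' : g * b * g⁻¹ = c * (g * w * g⁻¹) * c⁻¹ := hb'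
    rw [← hb'']
    calc g * w * g⁻¹ * (g * b * g⁻¹) = g * (w * b) * g⁻¹ := by group
      _ = g * (b * w) * g⁻¹ := by rw [hcomm w hwW b hb]
      _ = g * b * g⁻¹ * (g * w * g⁻¹) := by group
  · intro z hz hp
    obtain ⟨g, hg⟩ := TwoC.isConj P h0 hz
    have h1 : g⁻¹ * y * g ∈ centralizer ({z} : Set K) := by
      rw [mem_centralizer_singleton_iff]
      have hz' : z = g⁻¹ * z₀ * g := by rw [← hg]; group
      rw [hz']
      calc g⁻¹ * y * g * (g⁻¹ * z₀ * g) = g⁻¹ * (y * z₀) * g := by group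
        _ = g⁻¹ * (z₀ * y) * g := by rw [hy]
        _ = g⁻¹ * z₀ * g * (g⁻¹ * y * g) := by group
    obtain ⟨k, hk⟩ := hp ⟨_, h1⟩
    have hk' : (g⁻¹ * y * g) ^ 2 ^ k = 1 := congrArg Subtype.val hk
    have h2 : y ^ 2 ^ k = 1 := by
      have h3 : (g⁻¹ * y * g) ^ 2 ^ k = g⁻¹ * y ^ 2 ^ k * g := by
        have := conj_pow (a := g⁻¹) (b := y) (i := 2 ^ k)
        rwa [inv_inv] at this
      rw [h3] at hk'
      have : y ^ 2 ^ k = g * (g⁻¹ * y ^ 2 ^ k * g) * g⁻¹ := by group
      rw [this, hk']; group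
    have h3 : orderOf y ∣ 2 ^ k := orderOf_dvd_of_pow_eq_one h2
    have h4 : orderOf y = 3 := by
      haveI : Fact (Nat.Prime 3) := ⟨Nat.prime_three⟩
      exact orderOf_eq_prime hy3 hy1
    rw [h4] at h3
    have h5 : 3 ∣ 2 := Nat.Prime.dvd_of_dvd_pow Nat.prime_three h3
    omega

theorem TwoC.map [Finite K] {K' : Type*} [Group K'] (e : K ≃* K') {z : K} (hz : TwoC z) : TwoC (e z) := by
  obtain ⟨h1, P, hP⟩ := hz
  have hs : Function.Surjective (e : K →* K') := e.surjective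
  refine ⟨by rw [e.orderOf_eq, h1], P.mapSurjective hs, ?_⟩
  rw [Sylow.coe_mapSurjective]
  rintro _ ⟨q, hq, rfl⟩
  rw [mem_centralizer_singleton_iff]
  have := mem_centralizer_singleton_iff.1 (hP hq)
  show e q * e z = e z * e q
  rw [← map_mul, this, map_mul]

theorem cent_map {K' : Type*} [Group K'] (e : K ≃* K') {z : K} {c : K'} :
    c ∈ centralizer ({e z} : Set K') ↔ e.symm c ∈ centralizer ({z} : Set K) := by
  rw [mem_centralizer_singleton_iff, mem_centralizer_singleton_iff]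
  constructor
  · intro h
    apply e.injective
    rw [map_mul, map_mul, e.apply_symm_apply]; exact h
  · intro h
    have := congrArg e h
    rwa [map_mul, map_mul, e.apply_symm_apply] at this

theorem RowS.congr [Finite K] {K' : Type*} [Group K'] (h : RowS K') (e : K ≃* K') : RowS K := by
  intro z hz W hW hzW hn w hw hα
  apply e.injective
  refine h (e z) (TwoC.map e hz) (W.map e.toMonoidHom) ?_ ⟨z, hzW, rfl⟩ ?_ (e w) ⟨w, hw, rfl⟩ ?_
  · rintro _ ⟨a, ha, rfl⟩
    show e a * e a = 1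
    rw [← map_mul, hW a ha, map_one]
  · intro c hc
    have h1 := hn ((cent_map e).1 hc)
    have key : ∀ d : K, d ∈ normalizer (W : Set K) → ∀ x : K', x ∈ W.map e.toMonoidHom →
        e d * x * (e d)⁻¹ ∈ W.map e.toMonoidHom := by
      rintro d hd _ ⟨a, ha, rfl⟩
      refine ⟨d * a * d⁻¹, (mem_normalizer_iff.1 hd a).1 ha, ?_⟩
      show e (d * a * d⁻¹) = e d * e a * (e d)⁻¹
      rw [map_mul, map_mul, map_inv]
    rw [mem_normalizer_iff]
    intro x
    constructor
    · intro hx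
      have := key _ h1 x hx
      rwa [e.apply_symm_apply] at this
    · intro hx
      have := key _ (inv_mem h1) _ hx
      rw [map_inv, e.apply_symm_apply] at this
      have e' : c⁻¹ * (c * x * c⁻¹) * c⁻¹⁻¹ = x := by group
      rwa [e'] at this
  · obtain ⟨α, hα⟩ := hα
    refine ⟨(e.symm.trans α).trans e, ?_⟩
    show e (α (e.symm (e z))) = e w
    rw [e.symm_apply_apply, hα]

theorem RowTwo.congr' [Finite K] {K' : Type*} [Group K'] (h : RowTwo K') (e : K ≃* K') : RowTwo K := by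
  intro z hz hp
  refine h (e z) (TwoC.map e hz) ?_
  rintro ⟨c, hc⟩
  obtain ⟨k, hk⟩ := hp ⟨_, (cent_map e).1 hc⟩
  have hk' : (e.symm c) ^ 2 ^ k = 1 := congrArg Subtype.val hk
  refine ⟨k, Subtype.ext ?_⟩
  show c ^ 2 ^ k = 1
  rw [← e.apply_symm_apply c, ← map_pow, hk', map_one]

theorem BothS.congr [Finite K] {K' : Type*} [Group K'] (h : BothS K') (e : K ≃* K') : BothS K :=
  ⟨h.1.congr e, RowTwo.congr' h.2 e⟩

theorem BothS.both (h : BothS K) : Both K :=
  ⟨fun z hz _ W hW hzW hn w hw hα => h.1 z hz W hW hzW hn w hw hα, h.2⟩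

end Cfsg.Agent.H348.Tall
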