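import Cfsg.Agent.H348.Tall.Gen
import Cfsg.Agent.SmallSimple.S1000.PSLFacts

/-!
# S2927 (team TALL, helper348): `Both K` for `K = PSL₃(3)`
-/

set_option autoImplicit false

namespace Cfsg.Agent.H348.Tall.LThree

open Subgroup Cfsg Cfsg.Agent.H226.Tall Cfsg.Agent.H348.Tall Matrix

/-- the group -/
abbrev SL : Type := SpecialLinearGroup (Fin 3) (ZMod 3)

/-- matrices -/
abbrev M3 : Type := Matrix (Fin 3) (Fin 3) (ZMod 3)

def mr : M3 := !![1, 1, 0; -1, 1, 0; 0, 0, -1]
def ms : M3 := !![1, 0, 0; 0, -1, 0; 0, 0, -1]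
def mz : M3 := !![-1, 0, 0; 0, -1, 0; 0, 0, 1]
def mu : M3 := !![1, 1, 0; 0, 1, 0; 0, 0, 1]
def mv : M3 := !![1, 0, 0; 1, 1, 0; 0, 0, 1]

/-- the elements of the Sylow 2-subgroup -/
def nf (p : Fin 8 × Fin 2) : M3 := mr ^ (p.1 : ℕ) * ms ^ (p.2 : ℕ)

theorem nf_mul : ∀ p q : Fin 8 × Fin 2, ∃ t, nf p * nf q = nf t := by decide +kernel
theorem nf_inv : ∀ p : Fin 8 × Fin 2, ∃ t, nf p * nf t = 1 := by decide +kernel
theorem nf_inj : ∀ p q : Fin 8 × Fin 2, nf p = nf q → p = q := by decide +kernel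
theorem nf_det : ∀ p : Fin 8 × Fin 2, (nf p).det = 1 := by decide +kernel
theorem nf_z : ∀ p : Fin 8 × Fin 2, nf p * mz = mz * nf p := by decide +kernel
theorem nf_cen : ∀ p : Fin 8 × Fin 2, nf p * nf p = 1 → nf p * mr = mr * nf p → nf p * ms = ms * nf p →
    nf p = 1 ∨ nf p = mz := by decide +kernel
theorem nf_nc : ∀ p : Fin 8 × Fin 2, nf p * nf p = 1 → nf p ≠ 1 → nf p ≠ mz →
    nf p * (mu * nf p * (mu * mu)) ≠ mu * nf p * (mu * mu) * nf p ∨
    nf p * (mv * nf p * (mv * mv)) ≠ mv * nf p * (mv * mv) * nf p := by decide +kernel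

/-- the matrix -/
def mt (x : SL) : M3 := x.1

theorem mt_mul (x y : SL) : mt (x * y) = mt x * mt y := rfl
theorem mt_one : mt 1 = 1 := rfl
theorem mt_inj {x y : SL} (h : mt x = mt y) : x = y := Subtype.ext h

/-- an element from its matrix -/
def mk (m : M3) (h : m.det = 1) : SL := ⟨m, h⟩

theorem mt_mk (m : M3) (h : m.det = 1) : mt (mk m h) = m := rfl

/-- the Sylow 2-subgroup -/
def P : Subgroup SL where
  carrier := {x | ∃ p, mt x = nf p}
  one_mem' := ⟨(0, 0), by decide +kernel⟩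
  mul_mem' := by
    rintro x y ⟨p, hp⟩ ⟨q, hq⟩
    obtain ⟨t, ht⟩ := nf_mul p q
    exact ⟨t, by rw [mt_mul, hp, hq, ht]⟩
  inv_mem' := by
    rintro x ⟨p, hp⟩
    obtain ⟨t, ht⟩ := nf_inv p
    refine ⟨t, ?_⟩
    have h1 : x * mk (nf t) (nf_det t) = 1 := by
      apply mt_inj
      rw [mt_mul, hp, mt_mk, mt_one]
      exact ht
    rw [inv_eq_of_mul_eq_one_right h1, mt_mk]

theorem card_P : Nat.card P = 16 := by
  have h : Function.Bijective (fun p : Fin 8 × Fin 2 => (⟨mk (nf p) (nf_det p), ⟨p, rfl⟩⟩ : P)) := by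
    constructor
    · intro p q hpq
      exact nf_inj p q (congrArg (fun x : P => mt x) hpq)
    · rintro ⟨x, p, hp⟩
      exact ⟨p, Subtype.ext (mt_inj hp.symm)⟩
  rw [← Nat.card_congr (Equiv.ofBijective _ h)]
  simp

def R : SL := mk mr (by decide +kernel)
def S : SL := mk ms (by decide +kernel)
def Z : SL := mk mz (by decide +kernel)
def U : SL := mk mu (by decide +kernel)
def V : SL := mk mv (by decide +kernel)

theorem R_mem : R ∈ P := ⟨(1, 0), by decide +kernel⟩
theorem S_mem : S ∈ P := ⟨(0, 1), by decide +kernel⟩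
theorem U_inv : U⁻¹ = U * U := inv_eq_of_mul_eq_one_right (mt_inj (by decide +kernel))
theorem V_inv : V⁻¹ = V * V := inv_eq_of_mul_eq_one_right (mt_inj (by decide +kernel))
theorem UZ : U * Z = Z * U := mt_inj (by decide +kernel)
theorem VZ : V * Z = Z * V := mt_inj (by decide +kernel)
theorem U3 : U ^ 3 = 1 := mt_inj (by decide +kernel)
theorem U_ne : U ≠ 1 := by
  intro h
  have h1 : mu = 1 := congrArg mt h
  revert h1
  decide +kernel

theorem card_SL : Nat.card SL = 5616 := by
  have h1 := SmallSimple.PSLFacts.card_psl_three_three (F := ZMod 3) (ZMod.card 3)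
  rw [← h1]
  refine (Nat.card_congr (QuotientGroup.quotientBot.symm.trans
    (QuotientGroup.quotientMulEquivOfEq ?_)).toEquiv)
  rw [eq_comm, eq_bot_iff]
  intro x hx
  exact SmallSimple.PSLFacts.center_three hx

theorem both_model : BothS SL := by
  have : Fact (Nat.Prime 2) := ⟨Nat.prime_two⟩
  have : Finite SL := Nat.finite_of_card_ne_zero (by rw [card_SL]; norm_num)
  have hPp : IsPGroup 2 P := IsPGroup.of_card (n := 4) (by rw [card_P]; norm_num)
  have hPi : ¬ 2 ∣ P.index := by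
    have h1 := P.card_mul_index
    rw [card_P, card_SL] at h1
    omega
  have hco : ((hPp.toSylow hPi : Sylow 2 SL) : Subgroup SL) = P := rfl
  refine both_of_sylow (hPp.toSylow hPi) Z ?_ ?_ ?_ U UZ U3 U_ne
  · rw [hco]
    rintro x ⟨p, hp⟩
    rw [mem_centralizer_singleton_iff]
    apply mt_inj
    rw [mt_mul, mt_mul, hp]
    exact nf_z p
  · intro x hx hxx hx1 hc
    rw [hco] at hx
    obtain ⟨p, hp⟩ := hx
    have h1 : nf p * nf p = 1 := by
      rw [← hp, ← mt_mul, hxx, mt_one]
    have h2 : nf p * mr = mr * nf p := by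
      have := congrArg mt (hc R (by rw [hco]; exact R_mem))
      rw [mt_mul, mt_mul, hp] at this
      exact this
    have h3 : nf p * ms = ms * nf p := by
      have := congrArg mt (hc S (by rw [hco]; exact S_mem))
      rw [mt_mul, mt_mul, hp] at this
      exact this
    rcases nf_cen p h1 h2 h3 with h4 | h4
    · exfalso
      apply hx1
      apply mt_inj
      rw [hp, h4, mt_one]
    · apply mt_inj
      rw [hp, h4]; rfl
  · intro w hw hww hw1 hwz
    rw [hco] at hw
    obtain ⟨p, hp⟩ := hw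
    have h1 : nf p * nf p = 1 := by
      rw [← hp, ← mt_mul, hww, mt_one]
    have h2 : nf p ≠ 1 := fun h => hw1 (mt_inj (by rw [hp, h, mt_one]))
    have h3 : nf p ≠ mz := fun h => hwz (mt_inj (by rw [hp, h]; rfl))
    rcases nf_nc p h1 h2 h3 with h4 | h4
    · refine ⟨U, UZ, fun h => h4 ?_⟩
      rw [U_inv] at h
      have h6 := congrArg mt h
      simp only [mt_mul, hp] at h6
      exact h6
    · refine ⟨V, VZ, fun h => h4 ?_⟩
      rw [V_inv] at h
      have h6 := congrArg mt h
      simp only [mt_mul, hp] at h6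
      exact h6

/-- `PSL₃(3) = SL₃(3)` -/
noncomputable def equiv {F : Type*} [Field F] [Fintype F] (hF : Fintype.card F = 3) :
    ProjectiveSpecialLinearGroup (Fin 3) F ≃* SL :=
  ((LieClassical.FieldTransfer.pslCongr (ZMod.ringEquivOfPrime F (by norm_num) hF) :
    ProjectiveSpecialLinearGroup (Fin 3) (ZMod 3) ≃* ProjectiveSpecialLinearGroup (Fin 3) F).symm).trans
    ((QuotientGroup.quotientMulEquivOfEq (by
      rw [eq_bot_iff]
      intro x hx
      exact SmallSimple.PSLFacts.center_three hx)).trans QuotientGroup.quotientBot)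

theorem both_psl33 {F : Type*} [Field F] [Fintype F] (hF : Fintype.card F = 3) {K : Type*} [Group K]
    (h : Nonempty (K ≃* ProjectiveSpecialLinearGroup (Fin 3) F)) : Both K := by
  obtain ⟨e⟩ := h
  have : Finite SL := Nat.finite_of_card_ne_zero (by rw [card_SL]; norm_num)
  have : Finite K := Finite.of_injective (e.trans (equiv hF)) (e.trans (equiv hF)).injective
  exact (both_model.congr (e.trans (equiv hF))).both

end Cfsg.Agent.H348.Tall.LThree
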